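import Groth.Agent.Ega3B.ProjTwist
import Groth.Agent.PerfB.TwistDer
import Groth.Agent.Sga5.ProjSmooth
import Groth.Agent.Dcoh.Restrict

/-!
# The twisting sheaves are trivial on the standard charts of projective space
-/

set_option autoImplicit false
universe u

open AlgebraicGeometry CategoryTheory CategoryTheory.Limits

namespace Groth.Agent.Dual.H348.ChartTwist

open Groth.Agent.Sga5.ProjSmooth Groth.Agent.Ega3B.ProjTwist

variable (n : ℕ) (R : Type u) [CommRing R] (i : Fin (n + 1))

theorem isIso_chart_mulX (d : ℤ) :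
    IsIso ((Scheme.Modules.restrictFunctor (chart n R i)).map (mulX n R i d)) := by
  rw [Groth.Agent.Ega3B.TensorIso.isIso_iff_app_bijective]
  intro V
  refine Groth.Agent.PerfB.TwistMul.mulT_app_bijective (var n R i) d (d + 1) (by simp)
    ((chart n R i) ''ᵁ V) ?_
  exact ((chart n R i).image_le_opensRange V).trans (opensRange_chart n R i).le

/-- `O(d)` is trivial on the standard charts of `P^n_R`. -/
theorem nonempty_restrict_twist (d : ℤ) :
    Nonempty ((Scheme.Modules.restrictFunctor (chart n R i)).obj (Twist.twistProjSpace n R d) ≅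
      Coh.structureModule (Spec (CommRingCat.of (MvPolynomial (Fin n) R)))) := by
  have step : ∀ d : ℤ, Nonempty ((Scheme.Modules.restrictFunctor (chart n R i)).obj
      (Twist.twistProjSpace n R d) ≅ (Scheme.Modules.restrictFunctor (chart n R i)).obj
      (Twist.twistProjSpace n R (d + 1))) := fun d =>
    ⟨@asIso _ _ _ _ _ (isIso_chart_mulX n R i d)⟩
  induction d using Int.induction_on with
  | zero =>
    exact ⟨(Scheme.Modules.restrictFunctor (chart n R i)).mapIso
      (Groth.Agent.PerfB.TwistDer.twZero n R).symm ≪≫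
        Groth.Agent.Dcoh.Restrict.restrictUnit (chart n R i)⟩
  | succ d ih =>
    obtain ⟨e⟩ := step d
    obtain ⟨e'⟩ := ih
    exact ⟨e.symm ≪≫ e'⟩
  | pred d ih =>
    obtain ⟨e⟩ := step (-d - 1)
    obtain ⟨e'⟩ := ih
    have h : -(d : ℤ) - 1 + 1 = -d := by ring
    rw [h] at e
    exact ⟨e ≪≫ e'⟩

end Groth.Agent.Dual.H348.ChartTwist
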