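import Mathlib.CategoryTheory.Adjunction.Basic
import Mathlib.CategoryTheory.Adjunction.FullyFaithful

/-!
# Bijectivity of `Hom(N, O) → Hom(G N, W)`, `h ↦ G h ≫ υ`, for every isomorphism `υ : G O ≅ W`
-/

set_option autoImplicit false

open CategoryTheory

namespace Groth.Agent.Dual.H348.EndoAbs

universe v₁ v₂ v₃ v₄ u₁ u₂ u₃ u₄

variable {C : Type u₁} [Category.{v₁} C] {C' : Type u₂} [Category.{v₂} C']

/-- For every isomorphism `υ : G O ≅ W`, the map `h ↦ G h ≫ υ` is bijective. -/
def Good (G : C ⥤ C') (N O : C) (W : C') : Prop :=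
  ∀ υ : G.obj O ≅ W, Function.Bijective (fun h : N ⟶ O => G.map h ≫ υ.hom)

lemma Good.of_iso {G : C ⥤ C'} {N O N' O' : C} {W W' : C'} (h : Good G N O W) (e : N ≅ N')
    (e' : O ≅ O') (eW : W ≅ W') : Good G N' O' W' := by
  intro υ
  have h1 := h (G.mapIso e' ≪≫ υ ≪≫ eW.symm)
  have h2 : Function.Bijective (fun g : N' ⟶ O' => e.hom ≫ g ≫ e'.inv) :=
    (e.symm.homFromEquiv (Z := O)).bijective.comp (e'.symm.homToEquiv (Z := N')).bijective
  have h3 : Function.Bijective (fun g : G.obj N ⟶ W => G.map e.inv ≫ g ≫ eW.hom) :=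
    ((G.mapIso e).homFromEquiv (Z := W')).bijective.comp (eW.homToEquiv (Z := G.obj N)).bijective
  convert h3.comp (h1.comp h2) using 1
  funext g
  simp only [Function.comp_apply, Iso.trans_hom, Functor.mapIso_hom, Iso.symm_hom,
    Functor.map_comp, Category.assoc, Iso.inv_hom_id, Category.comp_id,
    Iso.map_inv_hom_id_assoc]

lemma Good.of_natIso {G G' : C ⥤ C'} {N O : C} {W : C'} (h : Good G N O W) (e : G ≅ G') :
    Good G' N O W := by
  intro υ
  have h1 := h (e.app O ≪≫ υ)
  have h3 : Function.Bijective (fun g : G.obj N ⟶ W => e.inv.app N ≫ g) :=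
    ((e.app N).homFromEquiv (Z := W)).bijective
  convert h3.comp h1 using 1
  funext g
  simp

variable {B : Type u₃} [Category.{v₃} B] {B' : Type u₄} [Category.{v₄} B']

/-- Transport along functors which are bijective on the relevant morphisms. -/
lemma Good.of_bijective {G : C ⥤ C'} {G' : B ⥤ B'} (T : C ⥤ B) (T' : C' ⥤ B')
    (θ : G ⋙ T' ≅ T ⋙ G') {N O : C} {W : C'}
    (h1 : Function.Bijective (fun h : N ⟶ O => T.map h))
    (h2 : Function.Bijective (fun h : G.obj N ⟶ W => T'.map h))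
    (h : Good G' (T.obj N) (T.obj O) (T'.obj W)) : Good G N O W := by
  intro υ
  have h3 := h ((θ.app O).symm ≪≫ T'.mapIso υ)
  have h4 : Function.Bijective (fun g : G'.obj (T.obj N) ⟶ T'.obj W => θ.hom.app N ≫ g) :=
    ((θ.app N).symm.homFromEquiv (Z := T'.obj W)).bijective
  refine (Function.Bijective.of_comp_iff' h2 _).1 ?_
  have key : (fun h : G.obj N ⟶ W => T'.map h) ∘ (fun h : N ⟶ O => G.map h ≫ υ.hom) =
      (fun g : G'.obj (T.obj N) ⟶ T'.obj W => θ.hom.app N ≫ g) ∘
        (fun h => G'.map h ≫ ((θ.app O).symm ≪≫ T'.mapIso υ).hom) ∘ (fun h => T.map h) := by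
    funext g
    simp only [Function.comp_apply, Functor.map_comp, Iso.trans_hom, Iso.symm_hom, Iso.app_inv,
      Functor.mapIso_hom]
    have h5 := θ.hom.naturality_assoc g (θ.inv.app O ≫ T'.map υ.hom)
    simp only [Functor.comp_map, Iso.hom_inv_id_app_assoc] at h5
    exact h5
  rw [key]
  exact h4.comp (h3.comp h1)

/-- The converse transport, along fully faithful functors. -/
lemma Good.of_full {G : C ⥤ C'} {G' : B ⥤ B'} (T : C ⥤ B) (T' : C' ⥤ B') [T.Full] [T.Faithful]
    [T'.Full] [T'.Faithful] (θ : G ⋙ T' ≅ T ⋙ G') {N O : C} {W : C'} (h : Good G N O W) :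
    Good G' (T.obj N) (T.obj O) (T'.obj W) := by
  intro υ
  let υ' : G.obj O ≅ W := T'.preimageIso (θ.app O ≪≫ υ)
  have h3 := h υ'
  have h1 : Function.Bijective (fun h : N ⟶ O => T.map h) :=
    ⟨T.map_injective, T.map_surjective⟩
  have h2 : Function.Bijective (fun h : G.obj N ⟶ W => T'.map h) :=
    ⟨T'.map_injective, T'.map_surjective⟩
  have h4 : Function.Bijective (fun g : T'.obj (G.obj N) ⟶ T'.obj W => θ.inv.app N ≫ g) :=
    ((θ.app N).homFromEquiv (Z := T'.obj W)).bijective
  refine (Function.Bijective.of_comp_iff _ h1).1 ?_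
  have key : (fun h : T.obj N ⟶ T.obj O => G'.map h ≫ υ.hom) ∘ (fun h : N ⟶ O => T.map h) =
      (fun g : T'.obj (G.obj N) ⟶ T'.obj W => θ.inv.app N ≫ g) ∘
        (fun h : G.obj N ⟶ W => T'.map h) ∘ (fun h => G.map h ≫ υ'.hom) := by
    funext g
    simp only [Function.comp_apply, Functor.map_comp]
    have h5 : T'.map υ'.hom = θ.hom.app O ≫ υ.hom := by simp [υ']
    rw [h5]
    have h6 := θ.inv.naturality_assoc g (θ.hom.app O ≫ υ.hom)
    simp only [Functor.comp_map, Iso.inv_hom_id_app_assoc] at h6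
    exact h6
  rw [key]
  exact h4.comp (h2.comp h3)

section Adj

variable {Ψ : B ⥤ C} {Φ : C ⥤ B} (adj : Ψ ⊣ Φ)

/-- The right adjoint is bijective on morphisms out of objects at which the counit is invertible. -/
lemma bijective_map_of_isIso_counit {K G : C} (hK : IsIso (adj.counit.app K)) :
    Function.Bijective (fun f : K ⟶ G => Φ.map f) := by
  have h1 : (fun f : K ⟶ G => Φ.map f) =
      (adj.homEquiv _ _) ∘ (fun f => adj.counit.app K ≫ f) := by
    funext f
    simp [Adjunction.homEquiv_unit]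
  rw [h1]
  refine (adj.homEquiv _ _).bijective.comp ⟨fun f g h => ?_, fun g => ?_⟩
  · exact (cancel_epi _).1 h
  · exact ⟨inv (adj.counit.app K) ≫ g, by simp⟩

end Adj

section RightAdj

variable {F R : C ⥤ C} (adj : F ⊣ R)

/-- `Good` gives bijectivity of composition with the adjoint map. -/
lemma Good.bijective_homEquiv {N O : C} {W : C} (h : Good F N O W) (υ : F.obj O ≅ W) :
    Function.Bijective (fun g : N ⟶ O => g ≫ adj.homEquiv O W υ.hom) := by
  have h1 := (adj.homEquiv N W).bijective.comp (h υ)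
  convert h1 using 1
  funext g
  simp [Adjunction.homEquiv_naturality_left]

end RightAdj

end Groth.Agent.Dual.H348.EndoAbs
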