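import Groth.Agent.Dual.H348.EndoRing
import Groth.Agent.S1822

/-!
# `O_X ⟶ RHom(E, E)` is an isomorphism if `E` is locally `ω~` with `A = RHom(ω, ω)`
-/

set_option autoImplicit false
universe u

open CategoryTheory CategoryTheory.Limits AlgebraicGeometry

attribute [local instance] HasDerivedCategory.standard

namespace Groth.Agent.Dual.H348.EndoLocal

open Groth.Agent.PerfA Groth.Agent.PerfA.Restrict Groth.Agent.PerfC.DTens
open Groth.Agent.LoccohB Groth.Agent.LoccohB.TensShriek Groth.Agent.LoccohB.TildeEta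
  Groth.Agent.LoccohB.LTenUnit EndoAbs EndoRing

/-- The local data: `ω` has endomorphism ring `A` and no self-extensions. -/
def IsEndo {A : Type u} [CommRing A] (ω : Dual.D A) : Prop :=
  Function.Bijective (fun a : A => a • 𝟙 ω) ∧ ∀ i : ℤ, i ≠ 0 → Subsingleton (ω ⟶ ω⟦i⟧)

/-- The affine case. -/
theorem good_spec {A : Type u} [CommRing A] (E : CochainComplex (Spec (CommRingCat.of A)).Modules ℤ)
    [DCoh.HasLTensorCx E] {ω : Dual.D A} (e : DCoh.toD _ E ≅ (tA A).obj ω) (h : IsEndo ω) (n : ℤ) :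
    Good (DCoh.LTensorCx E) ((tA A).obj (DerivedCategory.Q.obj (sg A n)))
      ((tA A).obj (DerivedCategory.Q.obj (sg A 0))) ((tA A).obj ω) := by
  let K : DRing.Cx A := DerivedCategory.Q.objPreimage ω
  let eK : DRing.toD K ≅ ω := DerivedCategory.Q.objObjPreimageIso ω
  have := LoccohB.LTen.hasLTensorCx K
  obtain ⟨θ⟩ := S1822.theta A K E ⟨e ≪≫ (tA A).mapIso eK.symm⟩
  exact Good.of_full (tA A) (tA A) θ.symm (good_ring K eK h.1 h.2 n)

variable {X : Scheme.{u}} (E : CochainComplex X.Modules ℤ) [DCoh.HasLTensorCx E]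

/-- The local case. -/
theorem good_local {A : Type u} [CommRing A] (j : Spec (CommRingCat.of A) ⟶ X) [IsOpenImmersion j]
    {ω : Dual.D A} (e : (restrictD j).obj (DCoh.toD X E) ≅ (tA A).obj ω) (h : IsEndo ω) (n : ℤ) :
    Good (DCoh.LTensorCx E) ((PerfC.ExtZeroD.shriekD j).obj
      ((DerivedCategory.singleFunctor (Spec (CommRingCat.of A)).Modules n).obj
        (Coh.structureModule (Spec (CommRingCat.of A)))))
      (DCoh.inD X (Coh.structureModule X)) (DCoh.toD X E) := by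
  obtain ⟨E₀, hE₀, ⟨eE⟩⟩ := exists_kflat E
  obtain ⟨α⟩ := resTenD j hE₀
  have := PerfC.DTens.hasLTensorCx ((TensShriek.resCx j).obj E₀)
  let θ : DCoh.LTensorCx E ⋙ restrictD j ≅
      restrictD j ⋙ DCoh.LTensorCx ((TensShriek.resCx j).obj E₀) :=
    Functor.isoWhiskerRight ((ltRIso E).symm ≪≫ ltRCongr eE) _ ≪≫ α ≪≫
      Functor.isoWhiskerLeft _ (ltRIso _)
  refine Good.of_bijective (restrictD j) (restrictD j) θ ?_ ?_ ?_
  · exact bijective_map_of_isIso_counit (PerfC.ExtZeroD.adjunction j)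
      (LoccohB.LiftSq.isIso_counit_of_iso (PerfC.ExtZeroD.adjunction j) (Iso.refl _))
  · exact bijective_map_of_isIso_counit (PerfC.ExtZeroD.adjunction j)
      (isIso_counit_LTensorCx j E _)
  · have e1 : DCoh.toD _ ((TensShriek.resCx j).obj E₀) ≅ (tA A).obj ω :=
      ((resQ j).app E₀).symm ≪≫ (restrictD j).mapIso eE.symm ≪≫ e
    refine (good_spec _ e1 h n).of_iso ?_ ?_ e.symm
    · exact (tASingle A n).symm ≪≫ PerfC.ExtZeroD.unitIso j _
    · exact (tASingle A 0).symm ≪≫ restrictSingle j 0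

/-- `O_X ⟶ RHom(E, E)` is an isomorphism if `E` is `ω~` with `A = RHom(ω, ω)` on a basis of affine opens. -/
theorem isIso_homEquiv [DCoh.HasRSheafHom E]
    (hB : ∀ (x : X) (V : X.Opens), x ∈ V → ∃ (A : Type u) (_ : CommRing A)
      (j : Spec (CommRingCat.of A) ⟶ X) (_ : IsOpenImmersion j), x ∈ j.opensRange ∧
        j.opensRange ≤ V ∧ ∃ ω : Dual.D A, IsEndo ω ∧
          Nonempty ((restrictD j).obj (DCoh.toD X E) ≅ (tA A).obj ω))
    (υ : (DCoh.LTensorCx E).obj (DCoh.inD X (Coh.structureModule X)) ≅ DCoh.toD X E) :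
    IsIso (((DCoh.RSheafHomAdj E).homEquiv (DCoh.inD X (Coh.structureModule X)) (DCoh.toD X E))
      υ.hom) := by
  choose A rA j hj hx hV ω hω e using hB
  let ι := Σ' (x : X) (V : X.Opens), x ∈ V
  have : ∀ i : ι, IsOpenImmersion (j i.1 i.2.1 i.2.2) := fun i => hj _ _ _
  refine Detect531.isIso_of_forall_bijective_shriek (ι := ι)
    (fun i => Spec (CommRingCat.of (A i.1 i.2.1 i.2.2))) (fun i => j i.1 i.2.1 i.2.2)
    (fun x V hxV => ⟨⟨x, V, hxV⟩, hx _ _ _, hV _ _ _⟩) _ fun i m => ?_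
  exact (good_local E (j i.1 i.2.1 i.2.2) (e _ _ _).some (hω _ _ _) m).bijective_homEquiv _ υ

end Groth.Agent.Dual.H348.EndoLocal
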