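import Groth.Agent.Dual.H348.EndoAbs
import Groth.Agent.LoccohB.RelOmega
import Groth.Agent.LoccohB.LTenUnit

/-!
# `Hom(A[-n], A) → Hom(A[-n] ⊗ᴸ K, ω)` for `K ≅ ω` with `A = RHom(ω, ω)`
-/

set_option autoImplicit false
universe v u

open CategoryTheory CategoryTheory.Limits Pretriangulated

attribute [local instance] HasDerivedCategory.standard

namespace Groth.Agent.Dual.H348.EndoRing

open Groth.Agent.LoccohB Groth.Agent.LoccohB.LTenUnit Groth.Agent.LoccohB.LTen EndoAbs

section Shift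

variable {C : Type u} [Category.{v} C] [HasShift C ℤ]

lemma subsingleton_of_shift {X Y : C} (n : ℤ) (h : Subsingleton (X ⟶ Y⟦n⟧)) :
    Subsingleton (X⟦-n⟧ ⟶ Y) := by
  refine ⟨fun f g => (shiftFunctor C n).map_injective ?_⟩
  let e : (X⟦-n⟧)⟦n⟧ ≅ X := (shiftFunctorCompIsoId C (-n) n (by simp)).app X
  rw [← cancel_epi e.inv]
  exact h.elim _ _

end Shift

variable {A : Type u} [CommRing A]

/-- `A` in degree `n` is a shift of `A` in degree `0`. -/
noncomputable def sgD (n : ℤ) : (DerivedCategory.Q.obj (sg A 0) : Dual.D A)⟦-n⟧ ≅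
    DerivedCategory.Q.obj (sg A n) :=
  ((DerivedCategory.Q.commShiftIso (-n)).app (sg A 0)).symm ≪≫ DerivedCategory.Q.mapIso
    (((CochainComplex.singleFunctors (ModuleCat.{u} A)).shiftIso (-n) n 0 (by simp)).app
      (ModuleCat.of A A))

/-- `A` in degree `0`. -/
noncomputable def sgZero : Dual.inD A A ≅ (DerivedCategory.Q.obj (sg A 0) : Dual.D A) :=
  RelOmega.inDIso A

variable (K : DRing.Cx A) [DRing.HasLTensorCx A K]

/-- If `A = RHom(ω, ω)` and `K ≅ ω` then `Hom(A[-n], A) → Hom(A[-n] ⊗ᴸ K, ω)` is bijective. -/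
theorem good_ring {ω : Dual.D A} (e : DRing.toD K ≅ ω)
    (h0 : Function.Bijective (fun a : A => a • 𝟙 ω))
    (h1 : ∀ i : ℤ, i ≠ 0 → Subsingleton (ω ⟶ ω⟦i⟧)) (n : ℤ) :
    Good (DRing.LTensorCx A K) (DerivedCategory.Q.obj (sg A n)) (DerivedCategory.Q.obj (sg A 0))
      ω := by
  intro υ
  by_cases hn : n = 0
  · subst hn
    have h2 : Function.Bijective
        (fun a : A => a • 𝟙 (DerivedCategory.Q.obj (sg A 0) : Dual.D A)) :=
      RelOmega.end_bijective_of_iso sgZero (RelOmega.end_inD_bijective A)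
    have h3 : Function.Bijective (fun g : ω ⟶ ω => υ.hom ≫ g) :=
      (υ.symm.homFromEquiv (Z := ω)).bijective
    refine (Function.Bijective.of_comp_iff _ h2).1 ?_
    have key : (fun h : (DerivedCategory.Q.obj (sg A 0) : Dual.D A) ⟶ DerivedCategory.Q.obj (sg A 0) =>
        (DRing.LTensorCx A K).map h ≫ υ.hom) ∘ (fun a : A => a • 𝟙 _) =
        (fun g : ω ⟶ ω => υ.hom ≫ g) ∘ (fun a : A => a • 𝟙 ω) := by
      funext a
      simp only [Function.comp_apply]
      rw [lten_map_smul]
      exact (Linear.smul_comp _ _ _ _ _ _).trans ((congrArg (fun z => a • z)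
        ((Category.id_comp _).trans (Category.comp_id _).symm)).trans
          (Linear.comp_smul _ _ _ _ _ _).symm)
    rw [key]
    exact h3.comp h0
  · have h2 : Subsingleton ((DerivedCategory.Q.obj (sg A n) : Dual.D A) ⟶
        DerivedCategory.Q.obj (sg A 0)) := by
      have h3 : Subsingleton ((DerivedCategory.Q.obj (sg A 0) : Dual.D A) ⟶
          (DerivedCategory.Q.obj (sg A 0))⟦n⟧) :=
        RelOmega.subsingleton_of_iso sgZero n (RelOmega.subsingleton_hom_inD A n hn)
      have h4 := subsingleton_of_shift n h3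
      exact ((sgD n).homFromEquiv (Z := (DerivedCategory.Q.obj (sg A 0) : Dual.D A))).symm.subsingleton
    have h3 : Subsingleton ((DRing.LTensorCx A K).obj (DerivedCategory.Q.obj (sg A n)) ⟶ ω) := by
      have h4 := subsingleton_of_shift n (h1 n hn)
      exact ((ltenSg K n ≪≫ (shiftFunctor (Dual.D A) (-n)).mapIso e).homFromEquiv
        (Z := ω)).subsingleton
    exact ⟨fun f g _ => h2.elim f g, fun g => ⟨0, h3.elim _ _⟩⟩

end Groth.Agent.Dual.H348.EndoRing
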