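import Groth.Agent.LoccohB.RAdjFin
import Groth.Agent.LoccohB.BCHyp

/-!
# Upper bounds for `RHom_P(A, -)`, `A` perfect over `P`
-/

set_option autoImplicit false
universe u

open CategoryTheory CategoryTheory.Limits Pretriangulated

attribute [local instance] HasDerivedCategory.standard

namespace Groth.Agent.Dual.H348.RadjBound

open DerivedCategory Groth.Agent.LoccohB Groth.Agent.LoccohB.RAdjFin Groth.Agent.LoccohB.HomBC
  Groth.Agent.LoccohB.DBase

/-- Morphisms from a perfect complex to `D^{≤ m}` vanish in large degrees. -/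
theorem exists_bound_hom {C : Type u} [CommRing C] {Y : Dual.D C} (hY : DRing.IsPerfect C Y) :
    ∃ a : ℤ, ∀ (L : Dual.D C) (m n : ℤ), L.IsLE m → m < n + a → Subsingleton (Y ⟶ L⟦n⟧) := by
  obtain ⟨E, a, b, h1, h2, ⟨e⟩⟩ := hY
  have hK : E.IsKProjective :=
    PerfTri.isKProjective_of_vanishesAbove (b := b) (fun i hi => h1 i (Or.inr hi))
      (fun i => (h2 i).2)
  refine ⟨a, fun L m n hL hmn => ?_⟩
  have hL' : (L⟦n⟧).IsLE (m - n) :=
    (TStructure.t : Triangulated.TStructure (Dual.D C)).isLE_shift L m n (m - n) (by ring)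
  obtain ⟨F, hF, ⟨e'⟩⟩ := (L⟦n⟧).exists_iso_Q_obj_of_isLE (m - n)
  have key : ∀ f : Y ⟶ L⟦n⟧, f = 0 := by
    intro f
    have h3 : e.hom ≫ f ≫ e'.hom = 0 := by
      refine BCHyp.eq_zero_of_kproj (fun i => ?_) _
      by_cases hi : i < a
      · exact Or.inl (h1 i (Or.inl hi))
      · exact Or.inr (CochainComplex.isZero_of_isStrictlyLE F (m - n) i (by lia))
    have h4 : f = e.inv ≫ (e.hom ≫ f ≫ e'.hom) ≫ e'.inv := by simp
    rw [h4, h3, zero_comp, comp_zero]
  exact ⟨fun f g => (key f).trans (key g).symm⟩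

variable {P A : Type u} [CommRing P] [CommRing A] {φ : P →+* A} {R : Dual.D P ⥤ Dual.D A}
  (adj : DRing.restrictD φ ⊣ R)

include adj in
/-- The right adjoint of restriction of scalars is bounded above if `A` is perfect over `P`. -/
theorem exists_isLE_radj (hA : DRing.IsPerfect P ((DRing.restrictD φ).obj (Dual.inD A A))) :
    ∃ a : ℤ, ∀ (L : Dual.D P) (m : ℤ), L.IsLE m → (R.obj L).IsLE (m - a) := by
  obtain ⟨a, ha⟩ := exists_bound_hom hA
  refine ⟨a, fun L m hL => ?_⟩
  rw [isLE_iff]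
  intro i hi
  rw [isZero_homology_iff]
  refine (hdRadjEquiv adj L i).toEquiv.subsingleton_congr.2 ?_
  have h1 := ha L m i hL (by lia)
  exact ((restrictDSingle φ 0 (ModuleCat.of A A)).homFromEquiv (Z := L⟦i⟧)).symm.subsingleton

end Groth.Agent.Dual.H348.RadjBound
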