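import Groth.Agent.LoccohB.AdMain
import Groth.Agent.Dual.H348.ChartTwist
import Groth.Agent.Dual.H348.RadjBound

/-!
# Local structure of `f^!` for `f : X ⟶ Y` with a compactification

`univ_local`: let `f = jX ≫ fbar` with `jX` open, `fbar` proper, `K ∈ D^+_QCoh(Y)` and `M = fbar^!(K)`.  Over affine
opens `Spec A ⊆ X`, `Spec R ⊆ Y` and for a closed immersion `s : Spec A ⟶ W` into an open `W` of a proper
`Spec R`-scheme `P`, `M|_{Spec A}` is the value of the right adjoint of `s_*` at `(π^! (K|_{Spec R}))|_W`.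
-/

set_option autoImplicit false

universe u

open CategoryTheory CategoryTheory.Limits AlgebraicGeometry Pretriangulated

attribute [local instance] HasDerivedCategory.standard

namespace Groth.Agent.Dual.H348.LocalModel

open Groth.Agent.LoccohB Groth.Agent.LoccohB.AdAffine Groth.Agent.LoccohB.AdBound
  Groth.Agent.LoccohB.AdCoh Groth.Agent.LoccohB.DBase Groth.Agent.LoccohB.AdStruct
  Groth.Agent.LoccohB.AdProj
open Groth.Agent.Ega1.ADualUniv Groth.Agent.Ega1.ADualOpen Groth.Agent.Dcoh.DerSch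
open Groth.Agent.PerfA.Restrict (restrictD)
open Groth.Agent.PerfA.PerfLocal (restrictDComp restrictDCongr)

variable {X Y Xb : Scheme.{u}}

section Local

variable [IsNoetherian Y] (fbar : Xb ⟶ Y) [IsProper fbar] (jX : X ⟶ Xb) [IsOpenImmersion jX]
  [DCoh.HasRpush fbar] {K : DCoh.D Y} (hK : DCoh.IsQCohD K) (b : ℤ) (hKb : K.IsGE b)
  {M : DCoh.D Xb} (hM : Ega1.ADualUniv.Univ fbar K M)
  {R A : CommRingCat.{u}} (i : Spec R ⟶ Y) [IsOpenImmersion i] (j : Spec A ⟶ X)
  [IsOpenImmersion j] (ψ : R ⟶ A) (hψ : Spec.map ψ ≫ i = j ≫ jX ≫ fbar)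

include hK hKb hM hψ

/-- Local structure of `f^!`. -/
theorem univ_local {P W : Scheme.{u}} (π : P ⟶ Spec R) [IsProper π] (l : W ⟶ P)
    [IsOpenImmersion l] (s : Spec A ⟶ W) [IsClosedImmersion s] (hs : s ≫ l ≫ π = Spec.map ψ)
    [DCoh.HasRpush π] [DCoh.HasRpush s] {L : DCoh.D P}
    (hL : Ega1.ADualUniv.Univ π ((restrictD i).obj K) L) :
    Ega1.ADualUniv.Univ s ((restrictD l).obj L) ((restrictD j).obj ((restrictD jX).obj M)) := by
  have hR : IsNoetherian (Spec R) := isNoetherian_of_finiteType i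
  have hp : IsPullback (pullback.fst fbar i) (pullback.snd fbar i) fbar i :=
    IsPullback.of_hasPullback _ _
  have := hasRpush (pullback.snd fbar i)
  have h1 := Ega1.ADualOpen.Univ.restrict fbar hp hK b hKb hM
  let j' : Spec A ⟶ pullback fbar i :=
    pullback.lift (j ≫ jX) (Spec.map ψ) (by rw [Category.assoc, hψ])
  have hj' : j' ≫ pullback.fst fbar i = j ≫ jX := pullback.lift_fst _ _ _
  have hj'' : j' ≫ pullback.snd fbar i = Spec.map ψ := pullback.lift_snd _ _ _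
  have : IsOpenImmersion (j' ≫ pullback.fst fbar i) := by rw [hj']; infer_instance
  have : IsOpenImmersion j' := IsOpenImmersion.of_comp j' (pullback.fst fbar i)
  have h2 := Univ.structure (pullback.snd fbar i) π j' l s (by rw [hs, hj''])
    (PerfA.QCohD.isQCohD_restrictD i hK) b (PerfA.ExactD.isGE_map _ _ _) h1 hL
  exact h2.of_iso_left ((restrictDComp j' (pullback.fst fbar i)).app M ≪≫
    (restrictDCongr hj').app M ≪≫ (restrictDComp j jX).symm.app M)
    (PerfA.QCohD.isQCohD_restrictD j (PerfA.QCohD.isQCohD_restrictD jX hM.qcoh))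

end Local

section Bound

variable {R : CommRingCat.{u}}

lemma isLE_of_tilde (M : DerivedCategory (ModuleCat.{u} R)) (c : ℤ)
    (h : ((tD R).obj M).IsLE c) : M.IsLE c := by
  rw [DerivedCategory.isLE_iff] at h ⊢
  intro i hi
  have h1 := (h i hi).of_iso ((PerfA.ExactD.mapHomology (tilde.functor R) i).app M).symm
  exact isZero_of_faithful (tilde.functor R) h1

/-- `π^!` maps `D^{≤ c}` to `D^{≤ c + m}` if it commutes with coproducts and `π^!(O)` is in `D^{≤ m}`. -/
theorem isLE_of_univ_flat {P : Scheme.{u}} [CompactSpace P] [QuasiSeparatedSpace P]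
    (π : P ⟶ Spec R) [DCoh.HasRpush π]
    (hcop : ∀ (h : ∀ K : DCoh.D P, DCoh.IsQCohD K → DCoh.IsQCohD ((DCoh.Rpush π).obj K))
      (a : DCoh.DQCoh (Spec R) ⥤ DCoh.DQCoh P)
      (_ : (ObjectProperty.lift DCoh.IsQCohD (ObjectProperty.ι DCoh.IsQCohD ⋙ DCoh.Rpush π)
        (fun K => h K.obj K.property)) ⊣ a) (J : Type u), PreservesColimitsOfShape (Discrete J) a)
    (m : ℤ) (hO : ∀ L : DCoh.D P, Ega1.ADualUniv.Univ π ((tD R).obj (sg R 0 R)) L → L.IsLE m)
    {K : DCoh.D (Spec R)} (hK : DCoh.IsQCohD K) (c : ℤ) (hKc : K.IsLE c) {L : DCoh.D P}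
    (hL : Ega1.ADualUniv.Univ π K L) : L.IsLE (c + m) := by
  have : QuasiCompact π := quasiCompact_of_compactSpace π
  have : QuasiSeparated π := inferInstance
  have hf : ∀ N : DCoh.D P, DCoh.IsQCohD N → DCoh.IsQCohD ((DCoh.Rpush π).obj N) :=
    fun N hN => S0998.result π N hN
  have := S1766.result P (Spec R) π hf
  set F : DCoh.DQCoh P ⥤ DCoh.DQCoh (Spec R) := ObjectProperty.lift DCoh.IsQCohD
    (ObjectProperty.ι DCoh.IsQCohD ⋙ DCoh.Rpush π) (fun K => hf K.obj K.property) with hF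
  let a := F.rightAdjoint
  let adj : F ⊣ a := Adjunction.ofIsLeftAdjoint F
  obtain ⟨_, _, -⟩ := RpushTri.exists_isTriangulated_Rpush π
  let : a.CommShift ℤ := adj.rightAdjointCommShift ℤ
  have : adj.CommShift ℤ := adj.commShift_of_leftAdjoint ℤ
  have : a.IsTriangulated := adj.isTriangulated_rightAdjoint
  have : ∀ J : Type u, PreservesColimitsOfShape (Discrete J) a := fun J =>
    hcop hf a adj J
  have h1 : ((Φ a).obj (sg R 0 R)).IsLE m := hO _ (univ_of_adj (a := a) adj ((G R).obj (sg R 0 R)))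
  obtain ⟨K₀, ⟨eK⟩⟩ := ((S0997.result R).2.2 K).1 hK
  let eK' : (tD R).obj K₀ ≅ K := eK
  have hK₀ : K₀.IsLE c := isLE_of_tilde K₀ c
    ((DerivedCategory.TStructure.t :
      Triangulated.TStructure (DCoh.D (Spec R))).isLE_of_iso eK'.symm c)
  have h2 : ((Φ a).obj K₀).IsLE (c + m) := isLE_Φ a m h1 K₀ c
  have h3 : Ega1.ADualUniv.Univ π ((tD R).obj K₀) ((Φ a).obj K₀) :=
    univ_of_adj (a := a) adj ((G R).obj K₀)
  obtain ⟨e⟩ := (h3.of_iso_right eK').unique hL
  exact (DerivedCategory.TStructure.t :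
    Triangulated.TStructure (DCoh.D P)).isLE_of_iso e (c + m)

end Bound

section PnChart

variable (n : ℕ) (R : Type u) [CommRing R]

/-- `π^!(O)` on `P^n`. -/
theorem nonempty_iso_twist [DCoh.HasRpush (CohB1.ProjSpace.toSpec n R)]
    {L : DCoh.D (CohB1.ProjSpace n R)}
    (hL : Ega1.ADualUniv.Univ (CohB1.ProjSpace.toSpec n R)
      ((tD (CommRingCat.of R)).obj (sg (CommRingCat.of R) 0 R)) L) :
    Nonempty (L ≅ (DCoh.inD (CohB1.ProjSpace n R)
      (Twist.twistProjSpace n R (-((n : ℤ) + 1))))⟦(n : ℤ)⟧) := by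
  have : IsProper (CohB1.ProjSpace.toSpec n R) := Ega3B.ProjProper.isProper_toSpec n R
  have hcP : CompactSpace (CohB1.ProjSpace n R) :=
    QuasiCompact.compactSpace_of_compactSpace (CohB1.ProjSpace.toSpec n R)
  have hqP : QuasiSeparatedSpace (CohB1.ProjSpace n R) :=
    quasiSeparatedSpace_of_quasiSeparated (CohB1.ProjSpace.toSpec n R)
  have hf : ∀ N : DCoh.D (CohB1.ProjSpace n R), DCoh.IsQCohD N →
      DCoh.IsQCohD ((DCoh.Rpush (CohB1.ProjSpace.toSpec n R)).obj N) :=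
    fun N hN => S0998.result (CohB1.ProjSpace.toSpec n R) N hN
  have := S1766.result _ _ (CohB1.ProjSpace.toSpec n R) hf
  let adj := Adjunction.ofIsLeftAdjoint (ObjectProperty.lift DCoh.IsQCohD
    (ObjectProperty.ι DCoh.IsQCohD ⋙ DCoh.Rpush (CohB1.ProjSpace.toSpec n R))
      (fun K => hf K.obj K.property))
  obtain ⟨e⟩ := S1824.result n R hf _ adj ((G (CommRingCat.of R)).obj (sg (CommRingCat.of R) 0 R))
    ⟨isoO (CommRingCat.of R)⟩
  obtain ⟨e'⟩ := (univ_of_adj adj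
    ((G (CommRingCat.of R)).obj (sg (CommRingCat.of R) 0 R))).unique hL
  exact ⟨e'.symm ≪≫ e⟩

/-- `π^!(O)` on the standard chart of `P^n`: it is `O[n]`. -/
theorem nonempty_chart_omega [DCoh.HasRpush (CohB1.ProjSpace.toSpec n R)]
    {K : DCoh.D (Spec (CommRingCat.of R))}
    (hK : Nonempty (K ≅ DCoh.inD _ (Coh.structureModule (Spec (CommRingCat.of R)))))
    {L : DCoh.D (CohB1.ProjSpace n R)}
    (hL : Ega1.ADualUniv.Univ (CohB1.ProjSpace.toSpec n R) K L) :
    Nonempty ((restrictD (Sga5.ProjSmooth.chart n R 0)).obj L ≅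
      (DCoh.inD _ (Coh.structureModule (Spec (CommRingCat.of (MvPolynomial (Fin n) R)))))⟦(n : ℤ)⟧) := by
  obtain ⟨eK⟩ := hK
  obtain ⟨e⟩ := nonempty_iso_twist n R (hL.of_iso_right (eK ≪≫ (isoO (CommRingCat.of R)).symm))
  obtain ⟨t⟩ := ChartTwist.nonempty_restrict_twist n R 0 (-((n : ℤ) + 1))
  let F := Scheme.Modules.restrictFunctor (Sga5.ProjSmooth.chart n R 0)
  exact ⟨(restrictD (Sga5.ProjSmooth.chart n R 0)).mapIso e ≪≫
    ((restrictD (Sga5.ProjSmooth.chart n R 0)).commShiftIso (n : ℤ)).app _ ≪≫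
    (shiftFunctor _ (n : ℤ)).mapIso ((F.mapDerivedCategorySingleFunctor 0).app _ ≪≫
      (DerivedCategory.singleFunctor _ 0).mapIso t)⟩

/-- `π^!` on `P^n` maps `D^{≤ c}` to `D^{≤ c - n}`. -/
theorem isLE_projSpace [DCoh.HasRpush (CohB1.ProjSpace.toSpec n R)]
    {K : DCoh.D (Spec (CommRingCat.of R))} (hK : DCoh.IsQCohD K) (c : ℤ) (hKc : K.IsLE c)
    {L : DCoh.D (CohB1.ProjSpace n R)}
    (hL : Ega1.ADualUniv.Univ (CohB1.ProjSpace.toSpec n R) K L) : L.IsLE (c + -(n : ℤ)) := by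
  have : IsProper (CohB1.ProjSpace.toSpec n R) := Ega3B.ProjProper.isProper_toSpec n R
  have hcP : CompactSpace (CohB1.ProjSpace n R) :=
    QuasiCompact.compactSpace_of_compactSpace (CohB1.ProjSpace.toSpec n R)
  have hqP : QuasiSeparatedSpace (CohB1.ProjSpace n R) :=
    quasiSeparatedSpace_of_quasiSeparated (CohB1.ProjSpace.toSpec n R)
  refine isLE_of_univ_flat (CohB1.ProjSpace.toSpec n R)
    (fun h a adj J => AdPnCoprod294.preservesCoproducts_projSpace n R h a adj J) (-(n : ℤ))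
    (fun L hL => ?_) hK c hKc hL
  obtain ⟨e⟩ := nonempty_iso_twist n R hL
  have h1 : ((DCoh.inD (CohB1.ProjSpace n R)
      (Twist.twistProjSpace n R (-((n : ℤ) + 1))))⟦(n : ℤ)⟧).IsLE (-(n : ℤ)) :=
    DerivedCategory.TStructure.t.isLE_shift _ 0 (n : ℤ) (-(n : ℤ)) (by lia)
  exact DerivedCategory.TStructure.t.isLE_of_iso e.symm (-(n : ℤ))

end PnChart

end Groth.Agent.Dual.H348.LocalModel
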