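import Groth.Agent.S1510
import Groth.Agent.LoccohB.FlatPerf
import Mathlib.RingTheory.Smooth.Basic

/-!
# If `R → A` is perfect, `A` is perfect over every polynomial ring surjecting onto it
-/

set_option autoImplicit false
universe u

open CategoryTheory CategoryTheory.Limits

attribute [local instance] HasDerivedCategory.standard

namespace Groth.Agent.Dual.H348.PerfHom

open Groth.Agent.LoccohB Groth.Agent.Flat2H Groth.Agent.Flat2H.TorDimHom

theorem isPerfect_restrictD {R A : Type u} [CommRing R] [CommRing A] [IsNoetherianRing R]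
    [Algebra R A] (h : MoreMor.IsPerfectHom R A) {n : ℕ} (ψ : MvPolynomial (Fin n) R →ₐ[R] A)
    (hψ : Function.Surjective ψ) :
    DRing.IsPerfect (MvPolynomial (Fin n) R)
      ((DRing.restrictD ψ.toRingHom).obj (Dual.inD A A)) := by
  let _ := ψ.toRingHom.toAlgebra
  have : IsScalarTower R (MvPolynomial (Fin n) R) A :=
    IsScalarTower.of_algebraMap_eq (fun r => (ψ.commutes r).symm)
  have : Module.Finite (MvPolynomial (Fin n) R) A :=
    Module.Finite.of_surjective (Algebra.linearMap (MvPolynomial (Fin n) R) A) hψ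
  have : Algebra.Smooth R (MvPolynomial (Fin n) R) := ⟨inferInstance, inferInstance⟩
  have h1 := (S1510.perfect_of_smooth R (MvPolynomial (Fin n) R) A (isPseudoCoherentHom_iff.1 h.1)
    h.2).2
  obtain ⟨d, hd⟩ := ftd_algebraMap_iff.1 h1
  exact PerfTri.isPerfect_of_iso (FlatPerf.restrictDInD ψ.toRingHom A).symm
    (FlatPerf.isPerfect_inD_of_fpInf d (FPInf.of_isNoetherianRing A) hd)

end Groth.Agent.Dual.H348.PerfHom
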