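import Groth.Agent.Dual.H348.LocalModel
import Groth.Agent.Dual.H348.EndoLocal
import Groth.Agent.Dual.H348.PerfHom
import Groth.Agent.LoccohB.RelOmega2
import Groth.Agent.S1769

/-!
# The twisted inverse image along a perfect morphism, locally
-/

set_option autoImplicit false

universe u

open CategoryTheory CategoryTheory.Limits AlgebraicGeometry Pretriangulated

attribute [local instance] HasDerivedCategory.standard

namespace Groth.Agent.Dual.H348.Perfect

open Groth.Agent.LoccohB Groth.Agent.LoccohB.AdAffine Groth.Agent.LoccohB.AdBound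
  Groth.Agent.LoccohB.AdCoh Groth.Agent.LoccohB.DBase Groth.Agent.LoccohB.AdStruct
  Groth.Agent.LoccohB.AdProj
open Groth.Agent.Ega1.ADualUniv Groth.Agent.Ega1.ADualOpen Groth.Agent.Dcoh.DerSch
open Groth.Agent.PerfA.Restrict (restrictD)
open LocalModel EndoLocal

section Charts

variable {X Y : Scheme.{u}} (f : X ⟶ Y)

/-- Arbitrarily small affine charts of a morphism. -/
theorem exists_chart (x : X) (V : X.Opens) (hx : x ∈ V) :
    ∃ (R A : Type u) (_ : CommRing R) (_ : CommRing A) (ψ : R →+* A)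
      (i : Spec (CommRingCat.of R) ⟶ Y) (j : Spec (CommRingCat.of A) ⟶ X)
      (_ : IsOpenImmersion i) (_ : IsOpenImmersion j),
      Spec.map (CommRingCat.ofHom ψ) ≫ i = j ≫ f ∧ x ∈ j.opensRange ∧ j.opensRange ≤ V ∧
      (MoreMor.IsPerfectMor f → letI := ψ.toAlgebra; MoreMor.IsPerfectHom R A) ∧
      (LocallyOfFiniteType f → ψ.FiniteType) := by
  obtain ⟨W, hW, hxW, -⟩ := exists_isAffineOpen_mem_and_subset (U := (⊤ : Y.Opens))
    (x := f x) trivial
  obtain ⟨U, hU, hxU, hUV⟩ := exists_isAffineOpen_mem_and_subset (U := V ⊓ f ⁻¹ᵁ W)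
    (x := x) ⟨hx, hxW⟩
  have e : U ≤ f ⁻¹ᵁ W := fun y hy => (hUV hy).2
  refine ⟨Γ(Y, W), Γ(X, U), inferInstance, inferInstance, (f.appLE W U e).hom, hW.fromSpec,
    hU.fromSpec, inferInstanceAs (IsOpenImmersion hW.fromSpec),
    inferInstanceAs (IsOpenImmersion hU.fromSpec), hW.SpecMap_appLE_fromSpec f hU e, ?_, ?_, ?_, ?_⟩
  · have : x ∈ Set.range hU.fromSpec := by
      rw [hU.range_fromSpec]
      exact hxU
    exact this
  · intro y hy
    have h1 : y ∈ Set.range hU.fromSpec := hy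
    rw [hU.range_fromSpec] at h1
    exact (hUV h1).1
  · intro hf
    exact hf U W hU hW e
  · intro hf
    exact f.finiteType_appLE hW hU e

end Charts

variable {X Y Xb : Scheme.{u}} [IsNoetherian Y] (fbar : Xb ⟶ Y) [IsProper fbar] (jX : X ⟶ Xb)
  [IsOpenImmersion jX] [DCoh.HasRpush fbar]
  {R A : Type u} [CommRing R] [CommRing A] (ψ : R →+* A) (i : Spec (CommRingCat.of R) ⟶ Y)
  [IsOpenImmersion i] (j : Spec (CommRingCat.of A) ⟶ X) [IsOpenImmersion j]
  (hψ : Spec.map (CommRingCat.ofHom ψ) ≫ i = j ≫ jX ≫ fbar)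
  {n : ℕ} (φ : MvPolynomial (Fin n) R →+* A) (hφ : Function.Surjective φ)
  (hφψ : φ.comp MvPolynomial.C = ψ)

include hψ hφψ hφ in
/-- The universal pair over `Spec A ⟶ Spec R[x_1..x_n]`. -/
theorem univ_chart {K : DCoh.D Y} (hK : DCoh.IsQCohD K) (b : ℤ) (hKb : K.IsGE b)
    {M : DCoh.D Xb} (hM : Ega1.ADualUniv.Univ fbar K M)
    [DCoh.HasRpush (CohB1.ProjSpace.toSpec n R)] [DCoh.HasRpush (Spec.map (CommRingCat.ofHom φ))]
    {L : DCoh.D (CohB1.ProjSpace n R)}
    (hL : Ega1.ADualUniv.Univ (CohB1.ProjSpace.toSpec n R) ((restrictD i).obj K) L) :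
    Ega1.ADualUniv.Univ (Spec.map (CommRingCat.ofHom φ))
      ((restrictD (Sga5.ProjSmooth.chart n R 0)).obj L)
      ((restrictD j).obj ((restrictD jX).obj M)) := by
  have : IsProper (CohB1.ProjSpace.toSpec n R) := Ega3B.ProjProper.isProper_toSpec n R
  have : IsClosedImmersion (Spec.map (CommRingCat.ofHom φ)) :=
    IsClosedImmersion.spec_of_surjective _ hφ
  refine univ_local fbar jX hK b hKb hM i j (CommRingCat.ofHom ψ) hψ (CohB1.ProjSpace.toSpec n R)
    (Sga5.ProjSmooth.chart n R 0) (Spec.map (CommRingCat.ofHom φ)) ?_ hL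
  rw [Sga5.ProjSmooth.chart_toSpec, ← Spec.map_comp, ← CommRingCat.ofHom_comp, hφψ]

include hψ hφψ hφ in
/-- `f^!` is bounded above on charts over which `f` is perfect. -/
theorem isLE_chart
    (hA : DRing.IsPerfect (MvPolynomial (Fin n) R) ((DRing.restrictD φ).obj (Dual.inD A A)))
    {K : DCoh.D Y} (hK : DCoh.IsQCohD K) (b c : ℤ) (hKb : K.IsGE b) (hKc : K.IsLE c)
    {M : DCoh.D Xb} (hM : Ega1.ADualUniv.Univ fbar K M) :
    ∃ m : ℤ, ((restrictD j).obj ((restrictD jX).obj M)).IsLE m := by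
  have : IsProper (CohB1.ProjSpace.toSpec n R) := Ega3B.ProjProper.isProper_toSpec n R
  have : DCoh.HasRpush (CohB1.ProjSpace.toSpec n R) := hasRpush _
  have : DCoh.HasRpush (Spec.map (CommRingCat.ofHom φ)) := hasRpush _
  have hcP : CompactSpace (CohB1.ProjSpace n R) :=
    QuasiCompact.compactSpace_of_compactSpace (CohB1.ProjSpace.toSpec n R)
  have hqP : QuasiSeparatedSpace (CohB1.ProjSpace n R) :=
    quasiSeparatedSpace_of_quasiSeparated (CohB1.ProjSpace.toSpec n R)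
  have hKi : DCoh.IsQCohD ((restrictD i).obj K) := PerfA.QCohD.isQCohD_restrictD i hK
  obtain ⟨L, hL⟩ := exists_univ (CohB1.ProjSpace.toSpec n R) _ hKi
  have h1 := univ_chart fbar jX ψ i j hψ φ hφ hφψ hK b hKb hM hL
  have h2 : L.IsLE (c + -(n : ℤ)) := isLE_projSpace n R hKi c (PerfA.ExactD.isLE_map _ _ _) hL
  have h3 : ((restrictD (Sga5.ProjSmooth.chart n R 0)).obj L).IsLE (c + -(n : ℤ)) :=
    PerfA.ExactD.isLE_map _ _ _
  obtain ⟨K₀, ⟨eK⟩⟩ := ((S0997.result (CommRingCat.of (MvPolynomial (Fin n) R))).2.2 _).1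
    (PerfA.QCohD.isQCohD_restrictD (Sga5.ProjSmooth.chart n R 0) hL.qcoh)
  let eK' : (tD (CommRingCat.of (MvPolynomial (Fin n) R))).obj K₀ ≅
    (restrictD (Sga5.ProjSmooth.chart n R 0)).obj L := eK
  have hK₀ : K₀.IsLE (c + -(n : ℤ)) := isLE_of_tilde K₀ _
    ((DerivedCategory.TStructure.t : Triangulated.TStructure
      (DCoh.D (Spec (CommRingCat.of (MvPolynomial (Fin n) R))))).isLE_of_iso eK'.symm _)
  obtain ⟨e⟩ := nonempty_iso_radj (CommRingCat.ofHom φ) hφ h1 K₀ eK' (RAdj.coextAdj φ)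
  obtain ⟨a, ha⟩ := RadjBound.exists_isLE_radj (RAdj.coextAdj φ) hA
  have h4 := ha K₀ (c + -(n : ℤ)) hK₀
  have h5 : ((tD (CommRingCat.of A)).obj ((RAdj.RCoext φ).obj K₀)).IsLE (c + -(n : ℤ) - a) :=
    PerfA.ExactD.isLE_map _ _ _
  exact ⟨c + -(n : ℤ) - a, (DerivedCategory.TStructure.t :
    Triangulated.TStructure (DCoh.D (Spec (CommRingCat.of A)))).isLE_of_iso e (c + -(n : ℤ) - a)⟩

/-- `IsEndo` is invariant under isomorphism. -/
theorem isEndo_of_iso {A : Type u} [CommRing A] {ω ω' : Dual.D A} (e : ω ≅ ω') (h : IsEndo ω) :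
    IsEndo ω' :=
  ⟨RelOmega.end_bijective_of_iso e h.1, fun i hi => RelOmega.subsingleton_of_iso e i (h.2 i hi)⟩

/-- `RHom_P(A, P)[n]` has endomorphism ring `A` if `A` is perfect over `P`. -/
theorem isEndo_radj
    (hA : DRing.IsPerfect (MvPolynomial (Fin n) R) ((DRing.restrictD φ).obj (Dual.inD A A))) :
    IsEndo ((RAdj.RCoext φ).obj ((Dual.inD (MvPolynomial (Fin n) R)
      (MvPolynomial (Fin n) R))⟦(n : ℤ)⟧)) := by
  let _ : Algebra R A := (φ.comp MvPolynomial.C).toAlgebra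
  let φ' : MvPolynomial (Fin n) R →ₐ[R] A := { φ with commutes' := fun r => rfl }
  have hφ' : φ'.toRingHom = φ := rfl
  have := LBC.hasLBaseChange (algebraMap R (MvPolynomial (Fin n) R))
  have h1 := RelOmega.toEnd_bijective_omega n φ' (RAdj.RCoext φ) (RAdj.coextAdj φ) hA
  have h2 := RelOmega.subsingleton_ext_omega n φ' (RAdj.RCoext φ) (RAdj.coextAdj φ) hA
  let : (RAdj.RCoext φ).CommShift ℤ := (RAdj.coextAdj φ).rightAdjointCommShift ℤ
  exact isEndo_of_iso (RelOmega.omegaIso n (RAdj.RCoext φ) ≪≫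
    (((RAdj.RCoext φ).commShiftIso (n : ℤ)).app _).symm) ⟨h1, h2⟩

include hψ hφψ hφ in
/-- `f^! O` on charts over which `f` is perfect. -/
theorem exists_omega
    (hA : DRing.IsPerfect (MvPolynomial (Fin n) R) ((DRing.restrictD φ).obj (Dual.inD A A)))
    {K : DCoh.D Y} (hK : Nonempty (K ≅ DCoh.inD Y (Coh.structureModule Y)))
    {M : DCoh.D Xb} (hM : Ega1.ADualUniv.Univ fbar K M) :
    ∃ ω : Dual.D A, IsEndo ω ∧
      Nonempty ((restrictD j).obj ((restrictD jX).obj M) ≅ (TildeEta.tA A).obj ω) := by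
  obtain ⟨eK⟩ := hK
  have : IsProper (CohB1.ProjSpace.toSpec n R) := Ega3B.ProjProper.isProper_toSpec n R
  have : DCoh.HasRpush (CohB1.ProjSpace.toSpec n R) := hasRpush _
  have : DCoh.HasRpush (Spec.map (CommRingCat.ofHom φ)) := hasRpush _
  have hcP : CompactSpace (CohB1.ProjSpace n R) :=
    QuasiCompact.compactSpace_of_compactSpace (CohB1.ProjSpace.toSpec n R)
  have hqP : QuasiSeparatedSpace (CohB1.ProjSpace n R) :=
    quasiSeparatedSpace_of_quasiSeparated (CohB1.ProjSpace.toSpec n R)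
  have hKq : DCoh.IsQCohD K := PerfA.QCohD.isQCohD_of_iso eK.symm
    (PerfA.QCohD.isQCohD_inD _ (PerfA.QCohSerre.isQCoh_unit Y))
  have hKb : K.IsGE 0 := (DerivedCategory.TStructure.t :
    Triangulated.TStructure (DCoh.D Y)).isGE_of_iso eK.symm 0
  have hKi : DCoh.IsQCohD ((restrictD i).obj K) := PerfA.QCohD.isQCohD_restrictD i hKq
  obtain ⟨L, hL⟩ := exists_univ (CohB1.ProjSpace.toSpec n R) _ hKi
  have h1 := univ_chart fbar jX ψ i j hψ φ hφ hφψ hKq 0 hKb hM hL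
  obtain ⟨eL⟩ := nonempty_chart_omega n R ⟨(restrictD i).mapIso eK ≪≫
    (TildeEta.restrictSingle i 0).symm⟩ hL
  let P := CommRingCat.of (MvPolynomial (Fin n) R)
  let e0 : (tD P).obj ((Dual.inD (MvPolynomial (Fin n) R) (MvPolynomial (Fin n) R))⟦(n : ℤ)⟧) ≅
      (restrictD (Sga5.ProjSmooth.chart n R 0)).obj L :=
    ((tD P).commShiftIso (n : ℤ)).app _ ≪≫
      (shiftFunctor (DCoh.D (Spec P)) (n : ℤ)).mapIso (isoO P) ≪≫ eL.symm
  obtain ⟨e⟩ := nonempty_iso_radj (CommRingCat.ofHom φ) hφ h1 _ e0 (RAdj.coextAdj φ)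
  exact ⟨_, isEndo_radj φ hA, ⟨e.symm⟩⟩

end Groth.Agent.Dual.H348.Perfect
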